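import Cfsg.Agent.H357.EP.Inv27
import Cfsg.Agent.KFacts.HN.Aut0
import Cfsg.Agent.H805.EPX.Rows

/-!
# S5745, row `HN` in `E₆(5)` (helper14)

`EE` : a subgroup of order 16 of `O₂(C(W0)) = 2^{1+8}` of `HN` all of whose involutions are conjugate to `W0`, so `HN`
does not embed into `E₆(q)`, `²E₆(q)`, `q` odd (helper357's V27).
-/

set_option autoImplicit false
set_option linter.unusedSectionVars false

namespace Cfsg.Agent.H14.EPX

open Cfsg Cfsg.Agent.HN Cfsg.Agent.HN.Pres Cfsg.Agent.HN.P1408 Cfsg.Agent.HN.H0Basic Cfsg.Agent.HN.XMat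
open Cfsg.Agent.HN.XStruct Cfsg.Agent.HN.XWords Cfsg.Agent.HN.XQuot Cfsg.Agent.HN.XInst
open Cfsg.Agent.KFacts.HN Cfsg.Agent.H357.EP

/-- the masks -/
def UU : List ℕ := [0, 3, 20, 23, 40, 43, 60, 63]

theorem UU_xor : ∀ m ∈ UU, ∀ m' ∈ UU, m ^^^ m' ∈ UU := by decide

theorem UU_lt : ∀ m ∈ UU, m < 256 := by decide

theorem UU_S : ∀ m ∈ UU, m ≠ 0 → CS.testBit m = true := by decide +kernel

theorem isConj_of_UU {m : ℕ} (hm : m ∈ UU) (b : Bool) (h : r Q m * sgn0 b ≠ 1) : IsConj W0 (r Q m * sgn0 b) := by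
  by_cases h0 : m = 0
  · subst h0
    rw [Bas.r_zero, one_mul] at h ⊢
    cases b
    · exact absurd rfl h
    · exact IsConj.refl _
  · exact kind_S (UU_lt m hm) (UU_S m hm h0) b

theorem sq_of_UU {m : ℕ} (hm : m ∈ UU) (b : Bool) : r Q m * sgn0 b * (r Q m * sgn0 b) = 1 := by
  by_cases h : r Q m * sgn0 b = 1
  · rw [h, one_mul]
  · obtain ⟨g, hg⟩ := isConj_iff.1 (isConj_of_UU hm b h)
    rw [← hg]
    have h1 : g * W0 * g⁻¹ * (g * W0 * g⁻¹) = g * (W0 * W0) * g⁻¹ := by group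
    rw [h1, W0_sq, mul_one, mul_inv_cancel]

/-- the subgroup of order 16 -/
noncomputable def EE : Subgroup Spor.HN where
  carrier := {x | ∃ m ∈ UU, ∃ b : Bool, x = r Q m * sgn0 b}
  one_mem' := ⟨0, by decide, false, by rw [Bas.r_zero, one_mul]; rfl⟩
  mul_mem' := by
    rintro _ _ ⟨m, hm, b, rfl⟩ ⟨m', hm', b', rfl⟩
    have h1 : π W0 (r Q (m ^^^ m')) = π W0 (r Q m * sgn0 b * (r Q m' * sgn0 b')) := by
      rw [π_r_mul, π_r]
    obtain ⟨c, hc⟩ := eq_of_π (r_mem_PP _) (PP.mul_mem (PP.mul_mem (r_mem_PP m) (sgn_mem_PP b))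
      (PP.mul_mem (r_mem_PP m') (sgn_mem_PP b'))) h1
    exact ⟨m ^^^ m', UU_xor m hm m' hm', c, hc⟩
  inv_mem' := by
    rintro _ ⟨m, hm, b, rfl⟩
    exact ⟨m, hm, b, inv_eq_of_mul_eq_one_left (sq_of_UU hm b)⟩

theorem card_EE : Nat.card EE = 16 := by
  let f : Fin 8 × Bool → EE := fun p => ⟨r Q (UU.getD p.1 0) * sgn0 p.2, UU.getD p.1 0, by
    have : ∀ i : Fin 8, UU.getD i 0 ∈ UU := by decide
    exact this p.1, p.2, rfl⟩
  have hf : Function.Bijective f := by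
    constructor
    · rintro ⟨i, b⟩ ⟨j, c⟩ h
      have h1 : r Q (UU.getD i 0) * sgn0 b = r Q (UU.getD j 0) * sgn0 c := congrArg Subtype.val h
      have hlt : ∀ i : Fin 8, UU.getD i 0 < 256 := by decide
      obtain ⟨h2, rfl⟩ := r_sgn_inj (hlt i) (hlt j) h1
      have h3 : ∀ i j : Fin 8, UU.getD i 0 = UU.getD j 0 → i = j := by decide
      rw [h3 i j h2]
    · rintro ⟨x, m, hm, b, rfl⟩
      have h1 : ∀ m ∈ UU, ∃ i : Fin 8, UU.getD i 0 = m := by decide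
      obtain ⟨i, rfl⟩ := h1 m hm
      exact ⟨(i, b), rfl⟩
  rw [← Nat.card_eq_of_bijective f hf, Nat.card_prod, Nat.card_fin, Nat.card_eq_fintype_card, Fintype.card_bool]

/-- `HN` does not embed into `E₆(q)` or `²E₆(q)`, `q` odd. -/
theorem not_inE6_HN : ¬ InE6 Spor.HN := by
  intro h
  refine h.no_pure EE ?_ card_EE (u := W0) ?_
  · rintro _ ⟨m, hm, b, rfl⟩
    exact sq_of_UU hm b
  · rintro _ ⟨m, hm, b, rfl⟩ h1
    exact isConj_of_UU hm b h1

/-- **the row** `HN` in `E₆(q)`, `q` odd -/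
theorem e6_odd_HN (F : Type) [Field F] [Fintype F] (ho : Odd (Fintype.card F)) :
    H805.EPX.NoRow (fun T _ => Spor.IsoHN T) ↥(Lie.chevE6.group F) := by
  rintro H N T _ e - ⟨f⟩
  apply not_inE6_HN
  have h1 : InE6 N := inE6_sub ho N
  let E : N ≃* Spor.HN := (e.trans (MulEquiv.funUnique (Fin 1) T)).trans f
  exact h1.mono E.symm.toMonoidHom E.symm.injective

/-- the field `e6_5_HN` of `H805.EPX.Rows` -/
theorem e6_5_HN (F : Type) [Field F] [Fintype F] [IsSimpleGroup ↥(Lie.chevE6.group F)] (h5 : Fintype.card F = 5) :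
    H805.EPX.NoRow (fun T _ => Spor.IsoHN T) ↥(Lie.chevE6.group F) :=
  e6_odd_HN F (by rw [h5]; decide)

/-- the twisted groups -/
theorem te6_odd_HN (K : Type) [Field K] [Fintype K] (q : ℕ) (ho : Odd (Fintype.card K)) :
    H805.EPX.NoRow (fun T _ => Spor.IsoHN T) ↥(Lie.twistedE6 K q) := by
  rintro H N T _ e - ⟨f⟩
  apply not_inE6_HN
  have h1 : InE6 ↥(Lie.twistedE6 K q) := inE6_tw ho (MulEquiv.refl _)
  let E : N ≃* Spor.HN := (e.trans (MulEquiv.funUnique (Fin 1) T)).trans f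
  exact h1.mono (N.subtype.comp E.symm.toMonoidHom) (Subtype.val_injective.comp E.symm.injective)

end Cfsg.Agent.H14.EPX
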